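import Cfsg.Agent.R2.T1.Main29.Part
import Cfsg.Agent.R2.T1.N6T.Main
import Cfsg.Agent.R2.T1.N6L.Main
import Cfsg.Agent.R2.T1.N7.Two
import Cfsg.Agent.R2.T1.N7.Three
import Cfsg.Agent.R2.T1.N7C.Three

/-!
# S5929: all boxes (helper24)
-/

set_option autoImplicit false

namespace Cfsg.Agent.R2.T1.Main29

open Cfsg Cfsg.Lie Module Equiv Equiv.Perm
open Cfsg.Agent.R2.T1

universe u

theorem open_all {F : Type u} [Field F] [Finite F] : Open F where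
  six2 _ _ _ hM hL h2 := N6T.six2 hM hL h2
  six3 _ _ _ hM hL h3 := N6L.six3 hM hL h3
  sev2 _ _ _ hM hL h2 := N7.sev2 hM hL h2
  sev3 _ _ _ hM hL h3 := N7.sev3 hM hL h3
  sev3c H φ hM hc h3 := N7C.sev3c H φ hM hc h3

theorem final {F : Type u} [Field F] [Fintype F] (p : ℕ) [Fact p.Prime] [CharP F p]
    (H : Subgroup ↥(Cfsg.Lie.chevE7.group F)) (hH : IsCoatom H) (n : ℕ) (hn : 5 ≤ n)
    (hA : Nonempty (↥(Cfsg.generalizedFittingSubgroup ↥H) ≃* ↥(alternatingGroup (Fin n)))) :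
    5 ≤ p ∧ (n = 7 → p = 5) :=
  of_boxes (boxes_of open_all) p H hH n hn hA

end Cfsg.Agent.R2.T1.Main29
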